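import Cfsg.Agent.Char.RelGlaub2

/-!
# The relative Glauberman correspondence, third part (owner: helper15)
-/

set_option autoImplicit false
set_option linter.style.haveILetI false
set_option linter.unusedSectionVars false

namespace Cfsg.Agent.Char.RG

open Cfsg Cfsg.Agent.Char Cfsg.Agent.CharBase Cfsg.Agent.Char.BG
open Cfsg.Agent.Glaub (Inv IsFix res restrAct restrAct_apply)
open scoped ComplexConjugate

universe u v w

variable {K : Type u} [Group K] {D : Type w} [Group D] {A : Type v} [Group A]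
  (φ : A →* MulAut K) (φD : A →* MulAut D) (Q : Subgroup K) [Q.Normal]
  (hQ : ∀ a, ∀ q ∈ Q, φ a q ∈ Q) (ι : D →* K) (hι : Function.Injective ι) (hQι : Q ≤ ι.range)
  (hfix : ∀ k, (∀ a, φ a k * k⁻¹ ∈ Q) ↔ k ∈ ι.range) (hφ : ∀ a d, ι (φD a d) = φ a (ι d))

section Mult

variable {θ : Q → ℂ} (T : Subgroup K) (hT : T = inertia Q θ)
  [Fintype K] [Fintype D] [Fintype Q] [Fintype T] [Fintype (Q.comap ι)]
  [Fintype (T.comap ι)]

include hι hQι in
theorem over_of_overD (hQT : Q ≤ T) (hQTD : Q.comap ι ≤ T.comap ι) (hθ : IsIrrCharacter Q θ)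
    {ξ : T → ℂ} (hξ : IsIrrCharacter T ξ)
    {η : T.comap ι → ℂ} (hη : IsIrrCharacter (T.comap ι) η)
    (ho : classInner (fun n : Q.comap ι => η ⟨n, hQTD n.2⟩) (fun n => θ (qHom Q ι n)) ≠ 0)
    (hne : classInner (fun d => ξ (qHom T ι d)) η ≠ 0) :
    classInner (fun n : Q => ξ ⟨n, hQT n.2⟩) θ ≠ 0 := by
  have hθD : IsIrrCharacter (Q.comap ι) (fun n => θ (qHom Q ι n)) :=
    Cfsg.Agent.H75.isIrrCharacter_comp_equiv hθ (qEquiv Q ι hι hQι)
  have hF : IsCharacter (T.comap ι) (fun d => ξ (qHom T ι d)) :=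
    isCharacter_comp (isCharacter_of_isIrr hξ) (qHom T ι)
  have h1 := inner_comp_ne_zero (Subgroup.inclusion hQTD) hF hη hθD hne ho
  have h2 := classInner_comp_equiv (qEquiv Q ι hι hQι) (fun n : Q => ξ ⟨n, hQT n.2⟩) θ
  rw [← h2]
  exact h1

include hι hQι hT in
theorem mult_eq (hQT : Q ≤ T) (hQTD : Q.comap ι ≤ T.comap ι) (hθ : IsIrrCharacter Q θ)
    {ψ : T → ℂ} (hψ : IsIrrCharacter T ψ)
    (hover : classInner (fun n : Q => ψ ⟨n, hQT n.2⟩) θ ≠ 0)
    {η : T.comap ι → ℂ} (hη : IsIrrCharacter (T.comap ι) η)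
    (ho : classInner (fun n : Q.comap ι => η ⟨n, hQTD n.2⟩) (fun n => θ (qHom Q ι n)) ≠ 0) :
    classInner (fun d => indFun T ψ (ι d)) (indFun (T.comap ι) η)
      = classInner (fun d => ψ (qHom T ι d)) η := by
  classical
  have : Fintype (IrrCharacter T) := Fintype.ofFinite _
  have hχ := isIrr_indFun_of_inertia Q T hθ hT hQT hψ hover
  have hcl := isClassFunction_of_isCharacter (isCharacter_of_isIrr hχ)
  have hclD : IsClassFunction D (fun d => indFun T ψ (ι d)) :=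
    isClassFunction_of_isCharacter (isCharacter_comp (isCharacter_of_isIrr hχ) ι)
  rw [frobenius_reciprocity' (T.comap ι) η _ hclD]
  have hresT : IsCharacter T (fun t : T => indFun T ψ t) :=
    isCharacter_restrict (isCharacter_of_isIrr hχ) T
  have h1 : (fun d : T.comap ι => indFun T ψ (ι d))
      = ∑ ξ : IrrCharacter T, classInner (fun t : T => indFun T ψ t) (ξ : T → ℂ)
        • (fun d => (ξ : T → ℂ) (qHom T ι d)) := by
    funext d
    have := congrFun (classFun_eq_sum (isClassFunction_of_isCharacter hresT)) (qHom T ι d)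
    rw [Finset.sum_apply] at this ⊢
    exact this
  rw [h1, classInner_sum_left, Finset.sum_eq_single (⟨ψ, hψ⟩ : IrrCharacter T)]
  · rw [classInner_smul_left, ← frobenius_reciprocity' T ψ _ hcl,
      (isIrrCharacter_iff (isCharacter_of_isIrr hχ)).mp hχ, one_mul]
  · intro ξ _ hξ
    rw [classInner_smul_left]
    by_contra hcon
    have h2 := left_ne_zero_of_mul hcon
    have h3 := right_ne_zero_of_mul hcon
    have h4 := over_of_overD Q ι hι hQι T hQT hQTD hθ ξ.2 hη ho h3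
    have h5 := correspondence_key Q T hθ hT hQT hχ ξ.2 h2 h4
    apply hξ
    apply Subtype.ext
    exact indFun_injective_of_inertia Q T hθ hT hQT ξ.2 hψ h4 hover h5.1
  · intro h
    exact absurd (Finset.mem_univ _) h

end Mult

section Inv

variable {θ : Q → ℂ} (T : Subgroup K) (hT : T = inertia Q θ)
  [Fintype K] [Fintype D] [Fintype Q] [Fintype T] [Fintype (Q.comap ι)]
  [Fintype (T.comap ι)]

theorem mem_iff_of_stable (R : Subgroup K) (hR : ∀ a, ∀ t ∈ R, φ a t ∈ R) (a : A) (k : K) :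
    φ a k ∈ R ↔ k ∈ R := by
  refine ⟨fun h => ?_, hR a k⟩
  have h1 := hR a⁻¹ _ h
  rwa [← MulAut.mul_apply, ← map_mul, inv_mul_cancel, map_one, MulAut.one_apply] at h1

theorem inv_indFun (hTs : ∀ a, ∀ t ∈ T, φ a t ∈ T) {ψ : T → ℂ} (h : Inv (restrAct φ T hTs) ψ) :
    Inv φ (indFun T ψ) := by
  intro a k
  refine (indFun_twist T (φ a) (mem_iff_of_stable φ T hTs a) (ψ := ψ) (ψ' := ψ) ?_ k).symm
  intro t t' htt'
  have h1 : t' = restrAct φ T hTs a t := Subtype.ext htt'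
  rw [h1, h a]

include hφ in
theorem inv_indFunD (hTs : ∀ a, ∀ t ∈ T, φ a t ∈ T) {η : T.comap ι → ℂ}
    (h : ∀ (a : A) (d d' : T.comap ι), (d' : D) = φD a d → η d' = η d) :
    Inv φD (indFun (T.comap ι) η) := by
  intro a k
  refine (indFun_twist (T.comap ι) (φD a) ?_ (ψ := η) (ψ' := η) ?_ k).symm
  · intro d
    rw [Subgroup.mem_comap, Subgroup.mem_comap, hφ]
    exact mem_iff_of_stable φ T hTs a _
  · intro t t' htt'
    exact (h a t t' htt').symm

include hT hQ in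
theorem inv_of_indFun (hTs : ∀ a, ∀ t ∈ T, φ a t ∈ T) (hQT : Q ≤ T) (hθ : IsIrrCharacter Q θ)
    (hinv : Inv (restrAct φ Q hQ) θ) {ψ : T → ℂ} (hψ : IsIrrCharacter T ψ)
    (hover : classInner (fun n : Q => ψ ⟨n, hQT n.2⟩) θ ≠ 0) (h : Inv φ (indFun T ψ)) :
    Inv (restrAct φ T hTs) ψ := by
  intro a
  have h1 : IsIrrCharacter T (fun t => ψ (restrAct φ T hTs a t)) :=
    Cfsg.Agent.H75.isIrrCharacter_comp_equiv hψ (restrAct φ T hTs a)
  have h2 : classInner (fun n : Q => (fun t => ψ (restrAct φ T hTs a t)) ⟨n, hQT n.2⟩) θ ≠ 0 := by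
    have h3 : θ = fun n => θ (restrAct φ Q hQ a n) := by
      funext n
      exact (hinv a n).symm
    have h4 := classInner_comp_equiv (restrAct φ Q hQ a) (fun n : Q => ψ ⟨n, hQT n.2⟩) θ
    rw [← h3] at h4
    rw [← h4] at hover
    exact hover
  have h5 : indFun T (fun t => ψ (restrAct φ T hTs a t)) = indFun T ψ := by
    funext k
    rw [indFun_twist T (φ a) (mem_iff_of_stable φ T hTs a) (ψ := ψ) (fun t t' htt' => ?_) k]
    · exact h a k
    · have h6 : t' = restrAct φ T hTs a t := Subtype.ext htt'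
      rw [h6]
  exact congrFun (indFun_injective_of_inertia Q T hθ hT hQT h1 hψ h2 hover h5)

end Inv

section Main

variable [Fintype K] [Fintype D] [Finite A] {p : ℕ} (hp : p.Prime) (hA : IsPGroup p A)
  (hQp : ∃ a : ℕ, Nat.card Q = p ^ a) (hpQ : ¬ p ∣ Q.index)

include hQ hι hQι hp hA hpQ hφ in
theorem exists_theta [Fintype (Q.comap ι)] {ξ : D → ℂ} (hξ : IsIrrCharacter D ξ)
    (hinv : Inv φD ξ) :
    ∃ θ : Q → ℂ, IsIrrCharacter Q θ ∧ Inv (restrAct φ Q hQ) θ ∧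
      classInner (fun n : Q.comap ι => ξ n) (fun n => θ (qHom Q ι n)) ≠ 0 := by
  have hQD : ∀ a, ∀ q ∈ Q.comap ι, φD a q ∈ Q.comap ι := by
    intro a q hq
    rw [Subgroup.mem_comap, hφ]
    exact hQ a _ hq
  have hpD : ¬ p ∣ (Q.comap ι).index := by
    intro h
    apply hpQ
    rw [Subgroup.index_comap] at h
    exact h.trans (Subgroup.relIndex_dvd_index_of_normal Q _)
  obtain ⟨θD, hθD, hne, hθinv⟩ := exists_inv_below φD (Q.comap ι) hp hA hpD hQD hξ hinv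
  let e := qEquiv Q ι hι hQι
  have hcomp : (fun n => θD (e.symm (qHom Q ι n))) = θD := by
    funext n
    congr 1
    exact e.symm_apply_apply n
  refine ⟨fun q => θD (e.symm q), Cfsg.Agent.H75.isIrrCharacter_comp_equiv hθD e.symm, ?_, ?_⟩
  · intro a q
    change θD (e.symm (restrAct φ Q hQ a q)) = θD (e.symm q)
    rw [← hθinv a (e.symm q)]
    congr 1
    rw [MulEquiv.symm_apply_eq]
    apply Subtype.ext
    rw [restrAct_apply]
    change φ a (q : K) = ι (φD a (e.symm q : D))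
    rw [hφ]
    have h1 : ι (e.symm q : D) = (q : K) := congrArg Subtype.val (e.apply_symm_apply q)
    rw [h1]
  · change classInner (fun n : Q.comap ι => ξ n) (fun n => θD (e.symm (qHom Q ι n))) ≠ 0
    rw [hcomp]
    exact hne

include hι hQι in
theorem over_of_inner [Fintype Q] [Fintype (Q.comap ι)] {χ : K → ℂ} (hχ : IsIrrCharacter K χ)
    {ξ : D → ℂ} (hξ : IsIrrCharacter D ξ)
    {θ : Q → ℂ} (hθ : IsIrrCharacter Q θ) (hne : classInner (fun d => χ (ι d)) ξ ≠ 0)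
    (ho : classInner (fun n : Q.comap ι => ξ n) (fun n => θ (qHom Q ι n)) ≠ 0) :
    classInner (fun n : Q => χ n) θ ≠ 0 := by
  have hθD : IsIrrCharacter (Q.comap ι) (fun n => θ (qHom Q ι n)) :=
    Cfsg.Agent.H75.isIrrCharacter_comp_equiv hθ (qEquiv Q ι hι hQι)
  have hF : IsCharacter D (fun d => χ (ι d)) := isCharacter_comp (isCharacter_of_isIrr hχ) ι
  have h1 := inner_comp_ne_zero (Q.comap ι).subtype hF hξ hθD hne ho
  rw [← classInner_comp_equiv (qEquiv Q ι hι hQι) (fun n : Q => χ n) θ]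
  exact h1

include hQ hp hA hpQ hfix in
theorem exists_conj_D [Fintype Q] [Fintype (Q.comap ι)] {χ : K → ℂ} (hχ : IsIrrCharacter K χ)
    {θ θ' : Q → ℂ} (hθ : IsIrrCharacter Q θ) (hinv : Inv (restrAct φ Q hQ) θ)
    (hθ' : IsIrrCharacter Q θ') (hinv' : Inv (restrAct φ Q hQ) θ')
    (ho : classInner (fun n : Q => χ n) θ ≠ 0) (ho' : classInner (fun n : Q => χ n) θ' ≠ 0) :
    ∃ c : D, cj (Q.comap ι) c (fun n => θ (qHom Q ι n)) = fun n => θ' (qHom Q ι n) := by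
  obtain ⟨g, hg⟩ := exists_conj_of_constituents Q hχ hθ hθ' ho ho'
  obtain ⟨k, hk, hkθ⟩ := exists_fixed_conj φ Q hp hA hpQ hQ hinv hinv' hg
  obtain ⟨c, rfl⟩ := (hfix k).mp hk
  refine ⟨c, ?_⟩
  funext n
  rw [← hkθ, cj_apply, cj_apply]
  congr 1
  apply Subtype.ext
  simp

include hQ hι hQι hfix hφ hp hA hQp hpQ

/-- The relative Glauberman correspondence, downwards. -/
theorem main_below {χ : K → ℂ} (hχ : IsIrrCharacter K χ) (hχinv : Inv φ χ) :
    ∃ ξ : D → ℂ, IsIrrCharacter D ξ ∧ Inv φD ξ ∧ ∃ m : ℕ, classInner (fun d => χ (ι d)) ξ = m ∧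
      ¬ p ∣ m ∧ (p : ℤ) ∣ (m : ℤ) ^ 2 - 1 ∧
      ∀ ξ' : D → ℂ, IsIrrCharacter D ξ' → Inv φD ξ' → ξ' ≠ ξ →
        ∀ n : ℕ, classInner (fun d => χ (ι d)) ξ' = n → p ∣ n := by
  classical
  have : Fintype Q := Fintype.ofFinite _
  have : Fintype (Q.comap ι) := Fintype.ofFinite _
  obtain ⟨θ, hθ, ho, hθinv⟩ := exists_inv_below φ Q hp hA hpQ hQ hχ hχinv
  have hθD : IsIrrCharacter (Q.comap ι) (fun n => θ (qHom Q ι n)) :=
    Cfsg.Agent.H75.isIrrCharacter_comp_equiv hθ (qEquiv Q ι hι hQι)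
  obtain ⟨T, hT⟩ : ∃ T : Subgroup K, T = inertia Q θ := ⟨_, rfl⟩
  have : Fintype T := Fintype.ofFinite _
  have : Fintype (T.comap ι) := Fintype.ofFinite _
  have hQT : Q ≤ T := hT ▸ le_inertia Q (isClassFunction_of_isCharacter (isCharacter_of_isIrr hθ))
  have hQTD : Q.comap ι ≤ T.comap ι := Subgroup.comap_mono hQT
  have hTs : ∀ a, ∀ t ∈ T, φ a t ∈ T := fun a t ht => T_stable φ Q hQ T hT hθinv a t ht
  have hTD : T.comap ι = inertia (Q.comap ι) (fun q => θ (qHom Q ι q)) := by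
    rw [hT]
    exact inertia_comap Q ι hQι
  obtain ⟨ψ, hψ, hψχ, hψo⟩ := clifford_correspondence Q T hθ hT hQT hχ ho
  rw [← hψo] at ho
  have hψinv : Inv (restrAct φ T hTs) ψ :=
    inv_of_indFun φ Q hQ T hT hTs hQT hθ hθinv hψ ho (hψχ ▸ hχinv)
  obtain ⟨η, hη, hηo, m, hm, hpm, hsq, huniq⟩ := T_below φ Q hQ ι hι hQι hfix T hT hp hA hQp hpQ
    hθ hθinv hTs hQT hQTD hψ hψinv ho
  have hξ := isIrr_indFun_of_inertia (Q.comap ι) (T.comap ι) hθD hTD hQTD hη hηo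
  have hηinv := TD_inv φ φD Q hQ ι hι hQι hfix hφ T hT hp hA hQp hpQ hθ hθinv hQTD hη hηo
  refine ⟨indFun (T.comap ι) η, hξ, inv_indFunD φ φD ι hφ T hTs hηinv, m, ?_, hpm, hsq, ?_⟩
  · rw [← hψχ, mult_eq Q ι hι hQι T hT hQT hQTD hθ hψ ho hη hηo, hm]
  · intro ξ' hξ' hξinv' hne n hn
    by_cases h0 : classInner (fun d => χ (ι d)) ξ' = 0
    · rw [h0] at hn
      have : n = 0 := by exact_mod_cast hn.symm
      rw [this]
      exact dvd_zero p
    obtain ⟨θ', hθ', hθinv', ho'⟩ := exists_theta φ φD Q hQ ι hι hQι hφ hp hA hpQ hξ' hξinv'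
    have h1 := over_of_inner Q ι hι hQι hχ hξ' hθ' h0 ho'
    have h2 : classInner (fun n : Q => χ n) θ ≠ 0 := by rw [← hψo]; exact ho
    obtain ⟨c, hc⟩ := exists_conj_D φ Q hQ ι hfix hp hA hpQ hχ hθ hθinv hθ' hθinv' h2 h1
    have h3 : classInner (fun n : Q.comap ι => ξ' n) (fun n => θ (qHom Q ι n)) ≠ 0 := by
      rw [← classInner_restrict_cj (Q.comap ι) (isClassFunction_of_isCharacter
        (isCharacter_of_isIrr hξ')) _ c, hc]
      exact ho'
    obtain ⟨η', hη', hηξ', hηo'⟩ := clifford_correspondence (Q.comap ι) (T.comap ι) hθD hTD hQTD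
      hξ' h3
    rw [← hηo'] at h3
    refine huniq η' hη' ?_ h3 n ?_
    · rintro rfl
      exact hne hηξ'.symm
    · rw [← mult_eq Q ι hι hQι T hT hQT hQTD hθ hψ ho hη' h3, hηξ', hψχ, hn]

/-- The relative Glauberman correspondence, upwards. -/
theorem main_above {ξ : D → ℂ} (hξ : IsIrrCharacter D ξ) (hξinv : Inv φD ξ) :
    ∃ χ : K → ℂ, IsIrrCharacter K χ ∧ Inv φ χ ∧
      ∃ m : ℕ, classInner (fun d => χ (ι d)) ξ = m ∧ ¬ p ∣ m := by
  classical
  have : Fintype Q := Fintype.ofFinite _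
  have : Fintype (Q.comap ι) := Fintype.ofFinite _
  obtain ⟨θ, hθ, hθinv, ho⟩ := exists_theta φ φD Q hQ ι hι hQι hφ hp hA hpQ hξ hξinv
  have hθD : IsIrrCharacter (Q.comap ι) (fun n => θ (qHom Q ι n)) :=
    Cfsg.Agent.H75.isIrrCharacter_comp_equiv hθ (qEquiv Q ι hι hQι)
  obtain ⟨T, hT⟩ : ∃ T : Subgroup K, T = inertia Q θ := ⟨_, rfl⟩
  have : Fintype T := Fintype.ofFinite _
  have : Fintype (T.comap ι) := Fintype.ofFinite _
  have hQT : Q ≤ T := hT ▸ le_inertia Q (isClassFunction_of_isCharacter (isCharacter_of_isIrr hθ))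
  have hQTD : Q.comap ι ≤ T.comap ι := Subgroup.comap_mono hQT
  have hTs : ∀ a, ∀ t ∈ T, φ a t ∈ T := fun a t ht => T_stable φ Q hQ T hT hθinv a t ht
  have hTD : T.comap ι = inertia (Q.comap ι) (fun q => θ (qHom Q ι q)) := by
    rw [hT]
    exact inertia_comap Q ι hQι
  obtain ⟨η, hη, hηξ, hηo⟩ := clifford_correspondence (Q.comap ι) (T.comap ι) hθD hTD hQTD hξ ho
  rw [← hηo] at ho
  obtain ⟨ψ, hψ, hψinv, hψo, m, hm, hpm⟩ := T_above φ Q hQ ι hι hQι hfix T hT hp hA hQp hpQ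
    hθ hθinv hTs hQT hQTD hη ho
  refine ⟨indFun T ψ, isIrr_indFun_of_inertia Q T hθ hT hQT hψ hψo, inv_indFun φ T hTs hψinv, m,
    ?_, hpm⟩
  rw [← hηξ, mult_eq Q ι hι hQι T hT hQT hQTD hθ hψ hψo hη ho, hm]

/-- The relative Glauberman correspondence, uniqueness above. -/
theorem main_unique {χ χ' : K → ℂ} (hχ : IsIrrCharacter K χ) (hχinv : Inv φ χ)
    (hχ' : IsIrrCharacter K χ') (hχinv' : Inv φ χ')
    {ξ : D → ℂ} (hξ : IsIrrCharacter D ξ) (hξinv : Inv φD ξ) {m n : ℕ}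
    (hm : classInner (fun d => χ (ι d)) ξ = m) (hpm : ¬ p ∣ m)
    (hn : classInner (fun d => χ' (ι d)) ξ = n) (hpn : ¬ p ∣ n) : χ = χ' := by
  classical
  have : Fintype Q := Fintype.ofFinite _
  have : Fintype (Q.comap ι) := Fintype.ofFinite _
  obtain ⟨θ, hθ, hθinv, ho⟩ := exists_theta φ φD Q hQ ι hι hQι hφ hp hA hpQ hξ hξinv
  have hθD : IsIrrCharacter (Q.comap ι) (fun n => θ (qHom Q ι n)) :=
    Cfsg.Agent.H75.isIrrCharacter_comp_equiv hθ (qEquiv Q ι hι hQι)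
  have hm0 : classInner (fun d => χ (ι d)) ξ ≠ 0 := by
    rw [hm]
    intro h
    apply hpm
    have : m = 0 := by exact_mod_cast h
    rw [this]
    exact dvd_zero p
  have hn0 : classInner (fun d => χ' (ι d)) ξ ≠ 0 := by
    rw [hn]
    intro h
    apply hpn
    have : n = 0 := by exact_mod_cast h
    rw [this]
    exact dvd_zero p
  have h1 := over_of_inner Q ι hι hQι hχ hξ hθ hm0 ho
  have h2 := over_of_inner Q ι hι hQι hχ' hξ hθ hn0 ho
  obtain ⟨T, hT⟩ : ∃ T : Subgroup K, T = inertia Q θ := ⟨_, rfl⟩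
  have : Fintype T := Fintype.ofFinite _
  have : Fintype (T.comap ι) := Fintype.ofFinite _
  have hQT : Q ≤ T := hT ▸ le_inertia Q (isClassFunction_of_isCharacter (isCharacter_of_isIrr hθ))
  have hQTD : Q.comap ι ≤ T.comap ι := Subgroup.comap_mono hQT
  have hTs : ∀ a, ∀ t ∈ T, φ a t ∈ T := fun a t ht => T_stable φ Q hQ T hT hθinv a t ht
  have hTD : T.comap ι = inertia (Q.comap ι) (fun q => θ (qHom Q ι q)) := by
    rw [hT]
    exact inertia_comap Q ι hQι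
  obtain ⟨η, hη, hηξ, hηo⟩ := clifford_correspondence (Q.comap ι) (T.comap ι) hθD hTD hQTD hξ ho
  rw [← hηo] at ho
  obtain ⟨ψ, hψ, hψχ, hψo⟩ := clifford_correspondence Q T hθ hT hQT hχ h1
  rw [← hψo] at h1
  obtain ⟨ψ', hψ', hψχ', hψo'⟩ := clifford_correspondence Q T hθ hT hQT hχ' h2
  rw [← hψo'] at h2
  have hψinv : Inv (restrAct φ T hTs) ψ :=
    inv_of_indFun φ Q hQ T hT hTs hQT hθ hθinv hψ h1 (hψχ ▸ hχinv)
  have hψinv' : Inv (restrAct φ T hTs) ψ' :=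
    inv_of_indFun φ Q hQ T hT hTs hQT hθ hθinv hψ' h2 (hψχ' ▸ hχinv')
  have h3 := T_unique φ Q hQ ι hι hQι hfix T hT hp hA hQp hpQ hθ hθinv hTs hQT hQTD hψ hψinv h1
    hψ' hψinv' h2 hη ho (m := m) (n := n)
    (by rw [← mult_eq Q ι hι hQι T hT hQT hQTD hθ hψ h1 hη ho, hηξ, hψχ, hm]) hpm
    (by rw [← mult_eq Q ι hι hQι T hT hQT hQTD hθ hψ' h2 hη ho, hηξ, hψχ', hn]) hpn
  rw [← hψχ, ← hψχ', h3]

end Main

/-- Congruence of degrees. -/
theorem degree_congr [Fintype D] [Finite A] {p : ℕ} (hp : p.Prime) (hA : IsPGroup p A)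
    {F : D → ℂ} (hF : IsCharacter D F) (hFinv : Inv φD F) {ξ : D → ℂ} (hξ : IsIrrCharacter D ξ)
    (hξinv : Inv φD ξ) {m N d : ℕ} (hm : classInner F ξ = m)
    (hother : ∀ ξ' : D → ℂ, IsIrrCharacter D ξ' → Inv φD ξ' → ξ' ≠ ξ →
        ∀ n : ℕ, classInner F ξ' = n → p ∣ n) (hN : F 1 = N) (hd : ξ 1 = d) :
    (p : ℤ) ∣ (N : ℤ) - m * d := by
  classical
  obtain ⟨M, hM⟩ := Cfsg.Agent.Glaub.exists_isPModular hp
  haveI : M.IsPrime := Cfsg.Agent.Blk.isPrime_of_isPModular hM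
  haveI : Fintype (IrrCharacter D) := Fintype.ofFinite _
  obtain ⟨k, hk, hsum⟩ := exists_mult_of_isCharacter hF
  choose e he using fun χ : IrrCharacter D => exists_nat_degree (irr_isCharacter χ)
  letI : MulAction A (IrrCharacter D) :=
    { smul := fun a χ => ⟨fun d => (χ : D → ℂ) (φD a⁻¹ d),
        Cfsg.Agent.H75.isIrrCharacter_comp_equiv χ.2 (φD a⁻¹)⟩
      one_smul := fun χ => Subtype.ext (by
        funext d
        change (χ : D → ℂ) (φD 1⁻¹ d) = (χ : D → ℂ) d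
        rw [inv_one, map_one, MulAut.one_apply])
      mul_smul := fun a b χ => Subtype.ext (by
        funext d
        change (χ : D → ℂ) (φD (a * b)⁻¹ d) = (χ : D → ℂ) (φD b⁻¹ (φD a⁻¹ d))
        rw [mul_inv_rev, map_mul, MulAut.mul_apply]) }
  have hsmul : ∀ (a : A) (χ : IrrCharacter D) (d : D),
      ((a • χ : IrrCharacter D) : D → ℂ) d = (χ : D → ℂ) (φD a⁻¹ d) := fun _ _ _ => rfl
  have hk' : ∀ (a : A) (χ : IrrCharacter D), k (a • χ) = k χ := by
    intro a χ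
    have h1 : classInner F ((a • χ : IrrCharacter D) : D → ℂ) = classInner F (χ : D → ℂ) := by
      have h2 : F = fun d => F (φD a⁻¹ d) := by
        funext d
        exact (hFinv a⁻¹ d).symm
      have h3 := classInner_comp_equiv (φD a⁻¹) F (χ : D → ℂ)
      rw [← h2] at h3
      exact h3
    rw [hk, hk] at h1
    exact_mod_cast h1
  have he' : ∀ (a : A) (χ : IrrCharacter D), e (a • χ) = e χ := by
    intro a χ
    have h1 : ((a • χ : IrrCharacter D) : D → ℂ) 1 = (χ : D → ℂ) 1 := by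
      rw [hsmul, map_one]
    rw [he, he] at h1
    exact_mod_cast h1
  have h1 := Cfsg.Agent.Glaub.mli_sum_sub_sum_fixed hM hA (X := IrrCharacter D)
    (fun χ => ((k χ * e χ : ℕ) : ℂ)) (fun a χ => by simp only [hk', he'])
    (fun χ => Cfsg.Agent.Blk.mlr_natCast _)
  have h2 : ∑ χ : IrrCharacter D, ((k χ * e χ : ℕ) : ℂ) = (N : ℂ) := by
    rw [← hN, hsum, Finset.sum_apply]
    refine Finset.sum_congr rfl fun χ _ => ?_
    rw [Pi.smul_apply, he]
    push_cast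
    rw [nsmul_eq_mul]
  rw [h2] at h1
  have h3 : ((N : ℤ) : ℂ) - ((∑ χ ∈ Finset.univ.filter
      (fun χ : IrrCharacter D => ∀ a : A, a • χ = χ), ((k χ * e χ : ℕ) : ℤ) : ℤ) : ℂ)
      = (N : ℂ) - ∑ χ ∈ Finset.univ.filter
      (fun χ : IrrCharacter D => ∀ a : A, a • χ = χ), ((k χ * e χ : ℕ) : ℂ) := by
    push_cast
    rfl
  rw [← h3, ← Int.cast_sub, Cfsg.Agent.Blk.mli_intCast_iff hM] at h1
  have hfixed : ∀ χ : IrrCharacter D, (∀ a : A, a • χ = χ) ↔ Inv φD (χ : D → ℂ) := by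
    intro χ
    constructor
    · intro h a d
      have h4 := congrFun (congrArg Subtype.val (h a⁻¹)) d
      change (χ : D → ℂ) (φD a⁻¹⁻¹ d) = (χ : D → ℂ) d at h4
      rwa [inv_inv] at h4
    · intro h a
      apply Subtype.ext
      funext d
      exact h a⁻¹ d
  have hmem : (⟨ξ, hξ⟩ : IrrCharacter D) ∈ Finset.univ.filter
      (fun χ : IrrCharacter D => ∀ a : A, a • χ = χ) := by
    rw [Finset.mem_filter]
    exact ⟨Finset.mem_univ _, (hfixed _).mpr hξinv⟩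
  rw [← Finset.add_sum_erase _ _ hmem] at h1
  have h5 : k ⟨ξ, hξ⟩ = m := by
    have := hk ⟨ξ, hξ⟩
    rw [show ((⟨ξ, hξ⟩ : IrrCharacter D) : D → ℂ) = ξ from rfl, hm] at this
    exact_mod_cast this.symm
  have h6 : e ⟨ξ, hξ⟩ = d := by
    have := he ⟨ξ, hξ⟩
    rw [show ((⟨ξ, hξ⟩ : IrrCharacter D) : D → ℂ) = ξ from rfl, hd] at this
    exact_mod_cast this.symm
  rw [h5, h6] at h1
  have h7 : (p : ℤ) ∣ ∑ χ ∈ (Finset.univ.filter
      (fun χ : IrrCharacter D => ∀ a : A, a • χ = χ)).erase ⟨ξ, hξ⟩, ((k χ * e χ : ℕ) : ℤ) := by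
    refine Finset.dvd_sum fun χ hχ => ?_
    rw [Finset.mem_erase, Finset.mem_filter] at hχ
    have h8 : p ∣ k χ := hother χ χ.2 ((hfixed χ).mp hχ.2.2)
      (fun h => hχ.1 (Subtype.ext h)) (k χ) (hk χ)
    exact Int.natCast_dvd_natCast.mpr (h8.mul_right _)
  have h9 := dvd_add h1 h7
  have h10 : (N : ℤ) - (((m * d : ℕ) : ℤ) + ∑ χ ∈ (Finset.univ.filter
      (fun χ : IrrCharacter D => ∀ a : A, a • χ = χ)).erase ⟨ξ, hξ⟩, ((k χ * e χ : ℕ) : ℤ))
      + ∑ χ ∈ (Finset.univ.filter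
      (fun χ : IrrCharacter D => ∀ a : A, a • χ = χ)).erase ⟨ξ, hξ⟩, ((k χ * e χ : ℕ) : ℤ)
      = (N : ℤ) - m * d := by
    push_cast
    ring
  rwa [h10] at h9

end Cfsg.Agent.Char.RG
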